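import Mathlib
import Cfsg.Agent.Lib.Helper6.SLGen

/-!
More generic lemmas for the exceptional isomorphisms.
-/

namespace Cfsg.Agent.Lib.Helper6
open Matrix

/-- surjectivity by counting, with only an upper bound for the kernel -/
theorem surjective_of_card_le {A B : Type*} [Group A] [Group B] [Finite A] [Finite B] (π : A →* B)
    (d : ℕ) (hd : Nat.card π.ker ≤ d) (h : Nat.card A = d * Nat.card B) :
    Function.Surjective π := by
  rw [← MonoidHom.range_eq_top]
  apply Subgroup.eq_top_of_le_card
  have h1 := Subgroup.card_eq_card_quotient_mul_card_subgroup π.ker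
  rw [Nat.card_congr (QuotientGroup.quotientKerEquivRange π).toEquiv, h] at h1
  have hB : 0 < Nat.card B := Nat.card_pos
  have hd0 : 0 < d := lt_of_lt_of_le Nat.card_pos hd
  have h2 : d * Nat.card B ≤ d * Nat.card π.range := by
    rw [h1, mul_comm]
    exact Nat.mul_le_mul_right _ hd
  exact Nat.le_of_mul_le_mul_left h2 hd0

/-- the unipotent trick: if `x t = r • t x` for a matrix `t` with `(t-1)^2 = 0` and `x` invertible
then `(r • t - 1)^2 = 0`. -/
theorem unipotent_trick {n R : Type*} [Fintype n] [DecidableEq n] [CommRing R]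
    (x t : Matrix n n R) (hx : IsUnit x) (r : R) (h : x * t = r • (t * x))
    (ht : (t - 1) * (t - 1) = 0) : (r • t - 1) * (r • t - 1) = 0 := by
  have h1 : x * (t - 1) = (r • t - 1) * x := by
    rw [Matrix.mul_sub, Matrix.sub_mul, h]
    simp
  have h2 : (r • t - 1) * (r • t - 1) * x = 0 := by
    rw [Matrix.mul_assoc, ← h1, ← Matrix.mul_assoc, ← h1, Matrix.mul_assoc, ht, Matrix.mul_zero]
  obtain ⟨u, rfl⟩ := hx
  have := congrArg (· * ((u⁻¹ : (Matrix n n R)ˣ) : Matrix n n R)) h2
  simpa [Matrix.mul_assoc] using this

/-- an element of `SLₙ` commuting up to scalars with all transvections is central. -/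
theorem SL_mem_center_of_commute_up_to {n F : Type*} [Fintype n] [DecidableEq n] [Nontrivial n]
    [Field F] (x : Matrix.SpecialLinearGroup n F)
    (h : ∀ (i j : n) (hij : i ≠ j) (c : F), ∃ r : F,
      (x : Matrix n n F) * Matrix.transvection i j c =
        r • (Matrix.transvection i j c * (x : Matrix n n F))) :
    x ∈ Subgroup.center (Matrix.SpecialLinearGroup n F) := by
  rw [Subgroup.mem_center_iff]
  intro g
  induction g using SL_transvection_induction with
  | htransvec i j hij c =>
    obtain ⟨r, hr⟩ := h i j hij c
    have hxu : IsUnit (x : Matrix n n F) := by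
      rw [Matrix.isUnit_iff_isUnit_det, x.2]
      exact isUnit_one
    have h0 := unipotent_trick _ _ hxu r hr (by
      simp [Matrix.transvection, Matrix.single_mul_single_of_ne _ _ _ _ hij.symm])
    have h1 := congrFun (congrFun h0 i) i
    have h2 : r • Matrix.transvection i j c - 1 = (r - 1) • (1 : Matrix n n F) +
        (r * c) • Matrix.single i j (1 : F) := by
      rw [Matrix.transvection, smul_add, sub_smul, one_smul, mul_smul]
      have : c • Matrix.single i j (1 : F) = Matrix.single i j c := by
        rw [Matrix.smul_single, smul_eq_mul, mul_one]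
      rw [this]
      abel
    rw [h2] at h1
    simp only [Matrix.add_mul, Matrix.mul_add, Matrix.smul_mul, Matrix.mul_smul, Matrix.one_mul,
      Matrix.mul_one, Matrix.single_mul_single_of_ne _ _ _ _ hij.symm, smul_zero, add_zero,
      Matrix.add_apply, Matrix.smul_apply, Matrix.one_apply_eq, Matrix.zero_apply,
      Matrix.single_apply, smul_eq_mul, mul_one] at h1
    rw [if_neg (fun hh => hij hh.2.symm)] at h1
    have hr1 : r = 1 := by
      have : (r - 1) ^ 2 = 0 := by linear_combination h1
      have := pow_eq_zero_iff (two_ne_zero) |>.1 this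
      linear_combination this
    rw [hr1, one_smul] at hr
    apply Subtype.ext
    rw [Matrix.SpecialLinearGroup.coe_mul, Matrix.SpecialLinearGroup.coe_mul,
      Matrix.SpecialLinearGroup.transvection_coe]
    exact hr.symm
  | hmul A B hA hB =>
    rw [mul_assoc, hB, ← mul_assoc, hA, mul_assoc]

end Cfsg.Agent.Lib.Helper6
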