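import Mathlib
import Cfsg.Agent.Lib.Helper6.OmegaIso3
import Cfsg.Agent.S0765

/-!
Symplectic groups: elements commuting up to scalars with all transvections are central; homs to
groups with a normal subgroup of index 4 land in that subgroup (odd characteristic).
-/

namespace Cfsg.Agent.Lib.Helper6
open Matrix

/-- the unipotent trick, final form: `x t = r • t x`, `(t-1)^2 = 0`, `x` invertible gives `r = 1`. -/
theorem unipotent_trick_eq_one {n F : Type*} [Fintype n] [DecidableEq n] [Nonempty n] [Field F]
    (x t : Matrix n n F) (hx : IsUnit x) (r : F) (h : x * t = r • (t * x))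
    (ht : (t - 1) * (t - 1) = 0) : r = 1 := by
  have h0 := unipotent_trick x t hx r h ht
  have h2 : r • t - 1 = (r - 1) • (1 : Matrix n n F) + r • (t - 1) := by
    rw [sub_smul, one_smul, smul_sub]
    abel
  rw [h2] at h0
  simp only [Matrix.add_mul, Matrix.mul_add, Matrix.smul_mul, Matrix.mul_smul, Matrix.one_mul,
    Matrix.mul_one, ht, smul_zero, add_zero] at h0
  have hsq : (r - 1) ^ 2 = 0 := by
    by_cases hN : t - 1 = 0
    · rw [hN] at h0
      simp only [smul_zero, add_zero] at h0
      obtain ⟨i⟩ := (inferInstance : Nonempty n)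
      have := congrFun (congrFun h0 i) i
      simp only [Matrix.smul_apply, Matrix.one_apply_eq, smul_eq_mul, mul_one,
        Matrix.zero_apply] at this
      linear_combination this
    · have h3 := congrArg (· * (t - 1)) h0
      simp only [Matrix.add_mul, Matrix.smul_mul, Matrix.one_mul, ht, smul_zero, add_zero,
        Matrix.zero_mul, smul_smul] at h3
      rcases smul_eq_zero.1 h3 with h4 | h4
      · linear_combination h4
      · exact absurd h4 hN
  have := pow_eq_zero_iff (two_ne_zero) |>.1 hsq
  linear_combination this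

theorem sympTransvection_sub_one_sq {F : Type*} [Field F] (m : ℕ) (w : Fin m ⊕ Fin m → F) (c : F) :
    (Cfsg.sympTransvection m w c - 1) * (Cfsg.sympTransvection m w c - 1) = 0 := by
  have h := Cfsg.Agent.Lib.Helper17.sympTransvection_mul m w c c
  have h' := Cfsg.Agent.Lib.Helper17.sympForm_self m w
  rw [Cfsg.sympForm] at h'
  simp only [Cfsg.sympTransvection, add_sub_cancel_left, Matrix.smul_mul, Matrix.mul_smul,
    Matrix.vecMulVec_mul_vecMulVec]
  rw [dotProduct_comm, h']
  simp

/-- an element of `Sp` commuting up to scalars with all transvections is central. -/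
theorem Sp_mem_center_of_commute_up_to {F : Type*} [Field F] (m : ℕ) (hm : 1 ≤ m)
    (x : Matrix.symplecticGroup (Fin m) F)
    (h : ∀ (w : Fin m ⊕ Fin m → F) (c : F), ∃ r : F,
      (x : Matrix (Fin m ⊕ Fin m) (Fin m ⊕ Fin m) F) * Cfsg.sympTransvection m w c =
        r • (Cfsg.sympTransvection m w c * (x : Matrix (Fin m ⊕ Fin m) (Fin m ⊕ Fin m) F))) :
    x ∈ Subgroup.center (Matrix.symplecticGroup (Fin m) F) := by
  have : Nonempty (Fin m ⊕ Fin m) := ⟨.inl ⟨0, hm⟩⟩
  rw [Subgroup.mem_center_iff]
  intro g
  have hg : g ∈ Subgroup.closure {A : Matrix.symplecticGroup (Fin m) F |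
      ∃ (w : Fin m ⊕ Fin m → F) (c : F),
        (A : Matrix (Fin m ⊕ Fin m) (Fin m ⊕ Fin m) F) = Cfsg.sympTransvection m w c} := by
    rw [Cfsg.Agent.S0765.result]
    trivial
  have hle : Subgroup.closure {A : Matrix.symplecticGroup (Fin m) F |
      ∃ (w : Fin m ⊕ Fin m → F) (c : F),
        (A : Matrix (Fin m ⊕ Fin m) (Fin m ⊕ Fin m) F) = Cfsg.sympTransvection m w c} ≤
      Subgroup.centralizer {x} := by
    rw [Subgroup.closure_le]
    rintro A ⟨w, c, hA⟩
    rw [SetLike.mem_coe, Subgroup.mem_centralizer_singleton_iff]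
    obtain ⟨r, hr⟩ := h w c
    have hxu : IsUnit (x : Matrix (Fin m ⊕ Fin m) (Fin m ⊕ Fin m) F) := by
      rw [Matrix.isUnit_iff_isUnit_det, SymplecticGroup.det_eq_one x.2]
      exact isUnit_one
    have hr1 := unipotent_trick_eq_one _ _ hxu r hr (sympTransvection_sub_one_sq m w c)
    rw [hr1, one_smul, ← hA] at hr
    apply Subtype.ext
    exact hr.symm
  have := hle hg
  rw [Subgroup.mem_centralizer_singleton_iff] at this
  exact this

/-- In odd characteristic a hom from `Sp` lands in every normal subgroup of index 4. -/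
theorem hom_Sp_mem_of_index_four {F : Type*} [Field F] (h2 : (2 : F) ≠ 0) (m : ℕ)
    {O : Type*} [Group O] (f : Matrix.symplecticGroup (Fin m) F →* O) (N : Subgroup O) [N.Normal]
    (hN : N.index = 4) (g : Matrix.symplecticGroup (Fin m) F) : f g ∈ N := by
  have hg : g ∈ Subgroup.closure {A : Matrix.symplecticGroup (Fin m) F |
      ∃ (w : Fin m ⊕ Fin m → F) (c : F),
        (A : Matrix (Fin m ⊕ Fin m) (Fin m ⊕ Fin m) F) = Cfsg.sympTransvection m w c} := by
    rw [Cfsg.Agent.S0765.result]
    trivial
  have hle : Subgroup.closure {A : Matrix.symplecticGroup (Fin m) F |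
      ∃ (w : Fin m ⊕ Fin m → F) (c : F),
        (A : Matrix (Fin m ⊕ Fin m) (Fin m ⊕ Fin m) F) = Cfsg.sympTransvection m w c} ≤
      N.comap f := by
    rw [Subgroup.closure_le]
    rintro A ⟨w, c, hA⟩
    rw [SetLike.mem_coe, Subgroup.mem_comap]
    have h4 : (4 : F) ≠ 0 := by
      have : (4 : F) = 2 * 2 := by norm_num
      rw [this]
      exact mul_ne_zero h2 h2
    let B : Matrix.symplecticGroup (Fin m) F :=
      ⟨Cfsg.sympTransvection m w (c / 4), Cfsg.Agent.Lib.Helper17.sympTransvection_mem m w _⟩
    have hAB : A = B ^ 4 := by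
      apply Subtype.ext
      rw [hA]
      show _ = (Cfsg.sympTransvection m w (c / 4)) ^ 4
      rw [pow_succ, pow_succ, pow_succ, pow_one,
        Cfsg.Agent.Lib.Helper17.sympTransvection_mul, Cfsg.Agent.Lib.Helper17.sympTransvection_mul,
        Cfsg.Agent.Lib.Helper17.sympTransvection_mul]
      congr 1
      field_simp
      ring
    rw [hAB, map_pow, ← hN]
    exact Subgroup.pow_index_mem N _
  exact hle hg

end Cfsg.Agent.Lib.Helper6
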