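import Mathlib

/-!
Generic construction of a matrix representation of `Equiv.Perm α` on a "heart" of the permutation
module: `G : Matrix ι α R` (columns `gam k`), `S : Matrix α ι R` a section.
-/

namespace Cfsg.Agent.Lib.Helper6.PermRep
open Matrix

variable {α ι R : Type*} [Fintype α] [DecidableEq α] [Fintype ι] [DecidableEq ι] [CommRing R]

/-- the matrix of `σ` -/
def mat (G : Matrix ι α R) (S : Matrix α ι R) (σ : Equiv.Perm α) : Matrix ι ι R :=
  (G.submatrix id σ) * S

theorem mat_one (G : Matrix ι α R) (S : Matrix α ι R) (hGS : G * S = 1) : mat G S 1 = 1 := by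
  rw [mat, ← hGS]
  rfl

theorem key (G : Matrix ι α R) (S : Matrix α ι R) (a b : α → R)
    (hG : ∀ u, ∑ k, G u k = 0)
    (hSG : ∀ k l, (S * G) k l = (if k = l then 1 else 0) + a l + b k) (σ τ : Equiv.Perm α) :
    (G.submatrix id σ) * (S * G.submatrix id τ) =
      G.submatrix id (σ * τ) + Matrix.of (fun u _ => ∑ k, G u (σ k) * b k) := by
  ext u l
  have h1 : ∀ k, (S * G.submatrix id τ) k l = (if k = τ l then 1 else 0) + a (τ l) + b k := by
    intro k
    rw [← hSG]
    simp [Matrix.mul_apply]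
  have h2 : ∑ k, G u (σ k) = 0 := by
    rw [Equiv.sum_comp σ (fun k => G u k), hG]
  rw [Matrix.mul_apply]
  simp only [h1, submatrix_apply, id, mul_add, Finset.sum_add_distrib, ← Finset.sum_mul, h2,
    zero_mul, add_zero, mul_ite, mul_one, mul_zero, Finset.sum_ite_eq', Finset.mem_univ, if_true,
    Matrix.add_apply, Matrix.of_apply, Equiv.Perm.coe_mul, Function.comp]

theorem mat_mul (G : Matrix ι α R) (S : Matrix α ι R) (a b : α → R)
    (hG : ∀ u, ∑ k, G u k = 0) (hS : ∀ u, ∑ k, S k u = 0)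
    (hSG : ∀ k l, (S * G) k l = (if k = l then 1 else 0) + a l + b k) (σ τ : Equiv.Perm α) :
    mat G S (σ * τ) = mat G S σ * mat G S τ := by
  have h := key G S a b hG hSG σ τ
  unfold mat
  rw [← Matrix.mul_assoc, Matrix.mul_assoc (G.submatrix id σ), h, Matrix.add_mul]
  have h0 : (Matrix.of (fun u (_ : α) => ∑ k, G u (σ k) * b k)) * S = 0 := by
    ext u v
    simp [Matrix.mul_apply, ← Finset.mul_sum, hS]
  rw [h0, add_zero]

/-- the action on the columns of `G` (up to a vector depending only on `σ`). -/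
theorem mat_mulVec_col (G : Matrix ι α R) (S : Matrix α ι R) (a b : α → R)
    (hG : ∀ u, ∑ k, G u k = 0)
    (hSG : ∀ k l, (S * G) k l = (if k = l then 1 else 0) + a l + b k) (σ : Equiv.Perm α) (i : α) :
    mat G S σ *ᵥ (fun u => G u i) = (fun u => G u (σ i)) + (fun u => ∑ k, G u (σ k) * b k) := by
  have h := key G S a b hG hSG σ 1
  ext u
  have h2 := congrFun (congrFun h u) i
  simp only [mul_one, Matrix.add_apply, submatrix_apply, id, Matrix.of_apply] at h2
  rw [Pi.add_apply, ← h2, mat]
  have h3 : (G.submatrix id (1 : Equiv.Perm α)) = G := rfl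
  rw [h3, ← Matrix.mul_assoc, Matrix.mul_apply, mulVec, dotProduct]

theorem mat_mulVec_sub (G : Matrix ι α R) (S : Matrix α ι R) (a b : α → R)
    (hG : ∀ u, ∑ k, G u k = 0)
    (hSG : ∀ k l, (S * G) k l = (if k = l then 1 else 0) + a l + b k) (σ : Equiv.Perm α) (i j : α) :
    mat G S σ *ᵥ ((fun u => G u i) - (fun u => G u j)) =
      (fun u => G u (σ i)) - (fun u => G u (σ j)) := by
  rw [mulVec_sub, mat_mulVec_col G S a b hG hSG, mat_mulVec_col G S a b hG hSG]
  abel

/-- the representation as a monoid hom into matrices. -/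
def hom (G : Matrix ι α R) (S : Matrix α ι R) (a b : α → R)
    (hG : ∀ u, ∑ k, G u k = 0) (hS : ∀ u, ∑ k, S k u = 0) (hGS : G * S = 1)
    (hSG : ∀ k l, (S * G) k l = (if k = l then 1 else 0) + a l + b k) :
    Equiv.Perm α →* Matrix ι ι R where
  toFun := mat G S
  map_one' := mat_one G S hGS
  map_mul' := mat_mul G S a b hG hS hSG

end Cfsg.Agent.Lib.Helper6.PermRep
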